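import Cfsg.Agent.Block.OneBr
import Cfsg.Agent.BlockB.Tame3

/-!
# Blocks all of whose characters have the same degree
-/

namespace CF.Block

open Cfsg MonoidAlgebra Subgroup Module
open CF.BlockB (v O k resC nrm omega eSet ev incl pPart pReg Cen sec regProj cm InSpan PV Γ BSet)
open scoped ComplexConjugate

variable {p : ℕ} {M : Ideal AlgInt} {G : Type*} [Group G] [Finite G] {B : Set (IrrCharacter G)}

theorem ev_rank_one (χ : IrrCharacter G) {J : ℂ[G]} (hJ : J * J = J)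
    (h1 : ev (χ : G → ℂ) J = 1) (x y : ℂ[G]) :
    ev (χ : G → ℂ) (x * J * (y * J)) = ev (χ : G → ℂ) (x * J) * ev (χ : G → ℂ) (y * J) := by
  classical
  have hc : ∀ a, eSet {χ} * a = a * eSet {χ} := fun a =>
    (Subalgebra.mem_center_iff.1 (BlockB.eSet_mem_Z {χ}) a).symm
  have he : ∀ a, ev (χ : G → ℂ) (eSet {χ} * a) = ev (χ : G → ℂ) a :=
    BlockB.ev_eSet_mul_of_mem rfl
  have h0 : ∀ a, eSet {χ} * J * a * (eSet {χ} * J) = eSet {χ} * (J * a * J) := fun a => by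
    rw [← mul_assoc, ← hc, ← mul_assoc, ← mul_assoc, BlockB.eSet_mul_self]
    simp only [mul_assoc]
  have ha : eSet {χ} * J * (eSet {χ} * J) = eSet {χ} * J := by simpa [hJ] using h0 1
  have h2 := finrank_range_mulLeftRight ha ha
  rw [Finset.sum_eq_single χ (fun ψ _ h => by
    rw [BlockB.ev_eSet_mul_of_notMem (B := {χ}) h, zero_mul])
    (by simp), he, h1, mul_one, Nat.cast_eq_one] at h2
  obtain ⟨c, h3⟩ := (finrank_eq_one_iff_of_nonzero' (⟨eSet {χ} * J, 1, by simpa using ha⟩ :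
    LinearMap.range (LinearMap.mulLeftRight ℂ (eSet {χ} * J, eSet {χ} * J))) (fun h => by
      have := he J
      rw [show eSet {χ} * J = 0 from congrArg Subtype.val h, h1, map_zero] at this
      exact zero_ne_one this)).1 h2 ⟨_, y, rfl⟩
  replace h3 : c • (eSet {χ} * J) = eSet {χ} * (J * y * J) := (congrArg Subtype.val h3).trans (h0 y)
  have h4 := congrArg (ev (χ : G → ℂ)) h3
  rw [map_smul, he, he, h1, smul_eq_mul, mul_one, mul_assoc,
    BlockB.ev_mul_comm (Char.irr_isClassFunction χ.2), mul_assoc, hJ] at h4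
  rw [← h4, ← he, show eSet {χ} * (x * J * (y * J)) = x * (eSet {χ} * (J * y * J)) by
    rw [← mul_assoc x, ← hc]; simp only [mul_assoc], ← h3, mul_smul_comm, map_smul,
    ← mul_assoc, ← hc, mul_assoc, he, smul_eq_mul, mul_comm]

theorem v_sum_ev_mul_le (hM : IsPModular p M) (hB : IsPBlock M B) [DecidablePred (· ∈ B)]
    (h : ∀ χ ∈ B, ∀ ψ ∈ B,
      pRegularPart p (χ : G → ℂ) = pRegularPart p ((ψ : IrrCharacter G) : G → ℂ))
    (h1 : blockRank p B = 1) {x y : ℂ[G]} (hx : nrm M x ≤ 1) (hy : nrm M y ≤ 1) :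
    v M ((Nat.card G : ℂ)⁻¹ * ∑ χ with χ ∈ B,
      (χ : G → ℂ) 1 * (ev (χ : G → ℂ) x * ev (χ : G → ℂ) y)) ≤ 1 := by
  obtain ⟨j, hj, hfj, -, htau, m, b, c, hbc⟩ := exists_prim_of_hom hM hB h h1
  have hB1 := BlockB.nrm_eSet_le_one hM hB
  have hE := BlockB.eSet_mul_self B
  obtain ⟨J, hJ, hEJ, hJE, -⟩ := exists_lifts_under hE hB1 (mem_fix_bot _) (mem_fix_bot j) hj.idem
    hfj (by rw [red_eSet, ← eb_comm, hfj])
  choose b' hb1 hb2 using fun i => exists_lift (M := M) (b i)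
  choose c' hc1 hc2 using fun i => exists_lift (M := M) (c i)
  have h2 : ∀ i, nrm M (b' i * J * c' i) ≤ 1 := fun i =>
    BlockB.nrm_mul_le_one (BlockB.nrm_mul_le_one (hb1 i) hJ.le) (hc1 i)
  have h3 := BlockB.nrm_sum_le (s := Finset.univ) fun i _ => h2 i
  have h4 : nrm M (1 - eSet B) ≤ 1 := BlockB.nrm_sub_le_of_le (by simp) hB1
  obtain ⟨z, hz, -, h5, -⟩ := exists_inv_of_red_eq_one (BlockB.nrm_add_le_of_le h3 h4) (by
    rw [red_add h3 h4, red_sub (by simp) hB1, red_sum _ _ fun i _ => h2 i, red_eSet, red_one,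
      Finset.sum_congr rfl fun i _ => by
        rw [red_mul (BlockB.nrm_mul_le_one (hb1 i) hJ.le) (hc1 i), red_mul (hb1 i) hJ.le, hJ.eq,
          (hb2 i).1, (hc2 i).1], hbc, add_sub_cancel])
  have h6 : ∀ x, nrm M x ≤ 1 → ∃ x', nrm M x' ≤ 1 ∧
      ∀ χ ∈ B, ev (χ : G → ℂ) x = ev (χ : G → ℂ) (x' * J) := fun x hx => by
    refine ⟨∑ i, c' i * z * x * b' i, BlockB.nrm_sum_le fun i _ => BlockB.nrm_mul_le_one
      (BlockB.nrm_mul_le_one (BlockB.nrm_mul_le_one (hc1 i) hz) hx) (hb1 i), fun χ hχ => ?_⟩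
    rw [← one_mul x, ← h5, ← BlockB.ev_eSet_mul_of_mem hχ, ← mul_assoc, ← mul_assoc, mul_add,
      mul_sub, mul_one, hE, sub_self, add_zero, mul_assoc, mul_assoc,
      BlockB.ev_eSet_mul_of_mem hχ, h5, one_mul]
    simp only [Finset.sum_mul, map_sum]
    refine Finset.sum_congr rfl fun i _ => ?_
    rw [mul_assoc, BlockB.ev_mul_comm (Char.irr_isClassFunction χ.2)]
    simp only [mul_assoc]
  obtain ⟨x', hx1, hx2⟩ := h6 x hx
  obtain ⟨y', hy1, hy2⟩ := h6 y hy
  refine le_of_eq_of_le (congrArg _ ?_) (v_coeff_le_one (BlockB.nrm_mul_le_one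
    (BlockB.nrm_mul_le_one hx1 hJ.le) (BlockB.nrm_mul_le_one hy1 hJ.le)) 1)
  rw [BlockB.coeff_one_eq_sum, Finset.sum_filter]
  refine congrArg _ (Finset.sum_congr rfl fun χ _ => ?_)
  split_ifs with hχ
  · rw [hx2 χ hχ, hy2 χ hχ, ev_rank_one χ hJ.idem]
    rw [← htau χ hχ, tau_eq (Char.irr_isClassFunction χ.2) hJ (one_mem _)]
    simp [← one_def]
  · rw [← mul_assoc, ← hJE, ← mul_assoc, BlockB.ev_mul_comm (Char.irr_isClassFunction χ.2),
      BlockB.ev_eSet_mul_of_notMem hχ, mul_zero]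

theorem rank_eq_one_of_cartan [Fintype G] (hM : IsPModular p M) (hB : IsPBlock M B) {ι : Type*}
    [Fintype ι] [DecidableEq ι] {φ Φ : ι → G → ℂ} (h : BSet p B φ Φ)
    (hC : ∀ i l, v M (classInner (Φ i) (Φ l)) ≤ v M (p : ℂ) ^ blockDefect p B) :
    blockRank p B = 1 := by
  have hB1 := BlockB.nrm_eSet_le_one hM hB
  have key : ∀ θ ∈ BlockB.Lat p B, v M (θ 1) ≠ v M (p : ℂ) ^ BlockB.minExp p B →
      ∀ i, v M (classInner θ (Φ i)) < 1 := fun θ hθ h1 i => by
    rw [h.eq_sum' hM hB1 (BlockB.lat_inSpan hM hB1 hθ) (BlockB.lat_pv hθ), Char.inner_sum_left]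
    refine Valuation.map_sum_lt _ one_ne_zero fun l _ => ?_
    rw [Char.inner_smul_left, map_mul]
    refine (mul_le_mul_right (hC l i) _).trans_lt ?_
    rw [mul_comm, ← map_pow, ← map_mul]
    obtain ⟨n, hn⟩ := BlockB.exists_int_pow_mul_inner_lat_lat hM hB1 hθ (h.lat l)
    refine lt_of_le_of_ne (hn ▸ BlockB.v_intCast_le_one M n) fun h2 => h1 ?_
    obtain ⟨θ', h3, h4, rfl⟩ := BlockB.mem_lat_iff.1 hθ
    rw [(BlockB.lat_pv (h.lat l)).inner_reg_left] at h2
    have h5 := ((BlockB.v_form_lat_iff hM hB h4.classFun (fun ξ => by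
      obtain ⟨m, hm⟩ := Char.inner_gen_eq_int h3 (Char.gen_of_irr ξ.2)
      exact hm ▸ BlockB.v_intCast_le_one M m) (h.lat l)).1 h2).1
    rwa [show blockPart B θ' = θ' from h4, ← BlockB.reg_one hM.1 θ'] at h5
  have h1 : ∀ i, ∃ a : ℤ, φ i 1 = p ^ BlockB.minExp p B * a ∧ v M (a : ℂ) = 1 := fun i => by
    have h2 : v M (φ i 1) = v M (p : ℂ) ^ BlockB.minExp p B := by
      by_contra h2
      simpa [h.dual] using key _ (h.lat i) h2 i
    obtain ⟨n, hn⟩ := BlockB.lat_one_eq_int hM.1 (h.lat i)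
    obtain ⟨a, rfl⟩ := (BlockB.v_intCast_le_pow_iff hM n _).1 (hn ▸ h2.le)
    push_cast at hn
    rw [hn, map_mul, map_pow, mul_eq_left₀ (BlockB.vp_pow_ne_zero hM _)] at h2
    exact ⟨a, hn, h2⟩
  refine le_antisymm ?_ (BlockB.blockRank_pos hM.1 (BlockB.block_nonempty hM hB))
  rw [← h.card_eq hM hB1, Fintype.card_le_one_iff]
  intro i l
  by_contra h2
  obtain ⟨a, ha, -⟩ := h1 i
  obtain ⟨b, hb, hb'⟩ := h1 l
  have h3 := key (b • φ i - a • φ l) (sub_mem (Submodule.smul_mem _ _ (h.lat i))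
    (Submodule.smul_mem _ _ (h.lat l))) (by
      rw [show (b • φ i - a • φ l) 1 = 0 by simp [ha, hb]; ring, map_zero]
      exact (BlockB.vp_pow_ne_zero hM _).symm) i
  rw [← Int.cast_smul_eq_zsmul ℂ, ← Int.cast_smul_eq_zsmul ℂ, Char.inner_sub_left,
    Char.inner_smul_left, Char.inner_smul_left, h.dual, h.dual] at h3
  simp [Ne.symm h2, hb'] at h3

theorem hom_of_eq_deg (hM : IsPModular p M) (hB : IsPBlock M B) {n : ℕ}
    (h : ∀ χ ∈ B, charDegree ((χ : IrrCharacter G) : G → ℂ) = n) {χ ψ : IrrCharacter G}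
    (hχ : χ ∈ B) (hψ : ψ ∈ B) : pRegularPart p (χ : G → ℂ) = pRegularPart p (ψ : G → ℂ) := by
  classical
  have := Fintype.ofFinite G
  have hB1 := BlockB.nrm_eSet_le_one hM hB
  obtain ⟨j, φ, hj⟩ := exists_iBr hM hB1
  have hs := hj.bset
  have h' : ∀ χ ∈ B, (χ : G → ℂ) 1 = n := fun χ hχ => by rw [← h χ hχ, BlockB.irr_charDegree_eq]
  have hn : (n : ℂ) ≠ 0 := h' χ hχ ▸ Char.irr_one_ne_zero χ.2
  have h1 : BlockB.regB B = (n : ℂ) • ∑ χ with χ ∈ B, (χ : G → ℂ) := funext fun g => by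
    rw [BlockB.regB_apply, Pi.smul_apply, Finset.sum_apply, Finset.smul_sum]
    exact Finset.sum_congr rfl fun χ hχ => by rw [h' χ (Finset.mem_filter.1 hχ).2, smul_eq_mul]
  have h2 : ∀ i, ∃ m : ℕ, φ i 1 = n * (m + 1 : ℕ) := fun i => by
    obtain ⟨m, hm⟩ := BlockB.exists_int_inner_lat (hs.lat i) (Φ := ∑ χ with χ ∈ B, (χ : G → ℂ))
      (Char.gen_sum _ fun χ _ => Char.gen_of_irr χ.2) fun g hg => by
        simpa only [h1, Pi.smul_apply, smul_eq_mul, mul_eq_zero, hn, false_or] using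
          BlockB.regB_eq_zero hM hB1 hg
    have h3 := inner_regB_left (hj.inSpan hM hB1 i)
    rw [h1, Char.inner_smul_right, hm, map_natCast] at h3
    obtain ⟨s, h4⟩ := hj.exists_apply_one hM hB1 i
    have h5 : (n : ℤ) * m = (s + 1 : ℕ) := by exact_mod_cast h3.trans h4
    obtain ⟨m, rfl⟩ := Int.eq_succ_of_zero_lt (pos_of_mul_pos_right
      (h5 ▸ Int.natCast_pos.2 s.succ_pos) (Int.natCast_nonneg n))
    exact ⟨m, by rw [← h3]; push_cast; rfl⟩
  choose m hm using h2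
  have h3 : ∀ χ ∈ B, ∃ i, ∀ l, classInner (χ : G → ℂ) (pch M (j l)) = if l = i then 1 else 0 :=
    fun χ hχ => by
      choose d hd using fun l => exists_nat_inner_pch (Char.irr_isCharacter χ.2) (hj.idem l)
      have h4 := congrFun (hs.reg_eq hχ) 1
      simp only [BlockB.reg_one hM.1, h' χ hχ, Finset.sum_apply, Pi.smul_apply, smul_eq_mul, hd, hm,
        mul_left_comm _ (n : ℂ), ← Finset.mul_sum] at h4
      have h5 : ∑ l, d l * (m l + 1) = 1 := by exact_mod_cast (left_eq_mul₀ hn).1 h4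
      obtain ⟨i, hi, h6⟩ := Finset.exists_ne_zero_of_sum_ne_zero (h5 ▸ one_ne_zero)
      rw [← Finset.add_sum_erase _ _ hi] at h5
      refine ⟨i, fun l => ?_⟩
      split_ifs with h8
      · rw [h8, hd, Nat.eq_one_of_mul_eq_one_right (show d i * (m i + 1) = 1 by omega), Nat.cast_one]
      · rw [hd, (mul_eq_zero.1 (Finset.sum_eq_zero_iff.1
          (show ∑ l ∈ Finset.univ.erase i, d l * (m l + 1) = 0 by omega) l
          (Finset.mem_erase.2 ⟨h8, Finset.mem_univ _⟩))).resolve_right (Nat.succ_ne_zero _),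
          Nat.cast_zero]
  have h4 : ∀ i l, i ≠ l → classInner (pch M (j i)) (pch M (j l)) = 0 := fun i l hil => by
    rw [← hs.sum_inner_mul]
    refine Finset.sum_eq_zero fun χ hχ => ?_
    obtain ⟨a, ha⟩ := h3 χ (Finset.mem_filter.1 hχ).2
    rw [← Char.inner_conj_symm, ha, ha]
    split_ifs with h5 h6 <;> simp_all
  obtain ⟨i, hi⟩ := h3 χ hχ
  obtain ⟨l, hl⟩ := h3 ψ hψ
  have h5 : pRegularPart p (χ : G → ℂ) = φ i := by simp [hs.reg_eq hχ, hi]
  have h6 : pRegularPart p (ψ : G → ℂ) = φ l := by simp [hs.reg_eq hψ, hl]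
  by_contra h7
  have h8 := fun a => (Finset.sum_eq_single i (fun b _ hb => by rw [h4 i b hb.symm, zero_mul])
    (by simp)).symm.trans (hs.sum_cartan_mul hM hB1 i a)
  have h9 := h8 l
  rw [if_neg (by rintro rfl; exact h7 (h5.trans h6.symm)), mul_eq_zero, ← h5, ← h6,
    BlockB.inner_reg_reg] at h9
  refine h9.elim (fun h9 => by simpa [h9] using h8 i)
    (BlockB.inner_reg_ne_zero_of_height_zero hM hB hχ hψ ?_)
  obtain ⟨ξ, hξ, h0⟩ := BlockB.exists_height_zero (p := p) ⟨χ, hχ⟩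
  rw [← h0]
  exact blockHeight_congr ((h' χ hχ).trans (h' ξ hξ).symm)

theorem nil_of_eq_deg (hM : IsPModular p M) (hB : IsPBlock M B) {P : Subgroup G} {e : (k M)[G]}
    (he : MaxPair p ⊤ (eb M B) P e) (hab : P ≤ centralizer (P : Set G)) {n : ℕ}
    (h : ∀ χ ∈ B, charDegree ((χ : IrrCharacter G) : G → ℂ) = n) : IsNilBlk p ⊤ (eb M B) := by
  classical
  have := Fact.mk hM.1
  have := BlockB.charP_k hM
  have := Fintype.ofFinite G
  have := Fintype.ofFinite P
  have hB1 := BlockB.nrm_eSet_le_one hM hB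
  have hom := fun χ hχ ψ hψ => hom_of_eq_deg hM hB h (χ := χ) (ψ := ψ) hχ hψ
  obtain ⟨χ₀, h₀⟩ := BlockB.block_nonempty hM hB
  have h' : ∀ χ ∈ B, (χ : G → ℂ) 1 = (χ₀ : G → ℂ) 1 := fun χ hχ => by
    rw [← BlockB.irr_charDegree_eq, h χ hχ, ← h χ₀ h₀, BlockB.irr_charDegree_eq]
  have hl : blockRank p B = 1 := by
    refine le_antisymm ?_ (BlockB.blockRank_pos hM.1 ⟨χ₀, h₀⟩)
    refine le_trans (Submodule.finrank_mono (t := ℂ ∙ pRegularPart p (χ₀ : G → ℂ))
      (Submodule.span_le.2 ?_)) ((finrank_span_le_card _).trans (by simp))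
    rintro _ ⟨ψ, hψ, rfl⟩
    exact Submodule.mem_span_singleton.2 ⟨1, (one_smul _ _).trans (hom _ h₀ _ hψ)⟩
  have h1 : ∀ x y, nrm M x ≤ 1 → nrm M y ≤ 1 → v M (∑ χ with χ ∈ B,
      ev (χ : G → ℂ) x * ev (χ : G → ℂ) y) ≤ v M (p : ℂ) ^ blockDefect p B := fun x y hx hy => by
    have h2 := v_sum_ev_mul_le hM hB hom hl hx hy
    have h3 := v_pow_mul_div hM hB h₀ (height_zero_of_hom hM hB hom h₀)
    rw [Finset.sum_congr rfl fun χ hχ => by rw [h' χ (Finset.mem_filter.1 hχ).2],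
      ← Finset.mul_sum, ← mul_assoc, map_mul] at h2
    rw [mul_div_assoc, div_eq_inv_mul, map_mul, map_pow] at h3
    calc _ = _ * (_ * _) := by rw [← mul_assoc, h3, one_mul]
      _ ≤ _ := mul_le_of_le_one_right' h2
  have h2 : ∀ u : P, blockRank p (sbl p P e u) = 1 := fun u => by
    have := Fintype.ofFinite (Cen (u : G))
    have hind := isInducedBlock_sbl hM hB he.bpair u.2
    obtain ⟨j, φ, hj⟩ := exists_iBr hM (BlockB.nrm_eSet_le_one hM hind.1)
    refine rank_eq_one_of_cartan hM hind.1 hj.bset fun i l => ?_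
    have h3 : ∀ (w : G) (hw : Cen (u : G) ≤ Cen w) (χ : IrrCharacter G) i,
        classInner (sec (Cen (u : G)) w χ) (pch M (j i)) =
          ev (χ : G → ℂ) (single w 1 * gmap (Cen (u : G)).subtype (lft M (j i))) :=
      fun w hw χ i => by
        have h4 : IsClassFunction _ (sec _ w χ) :=
          BlockB.sec_classFun (Char.irr_isClassFunction χ.2) hw
        rw [inner_pch h4 (hj.idem i), ← ev_lft h4 (hj.idem i), BlockB.ev_single_mul,
          ← BlockB.ev_eq_sum, ev_gmap]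
        rfl
    have h4 : ∀ (w : G) i, nrm M (single w 1 * gmap (Cen (u : G)).subtype (lft M (j i))) ≤ 1 :=
      fun w i => (BlockB.nrm_single_mul _ _).trans_le
        ((nrm_gmap_le _ _).trans (lft_spec (hj.idem i)).le)
    rw [← BlockB.sum_inner_sec_mul hM (x := ⟨(u : G), BlockB.self_mem_Cen _⟩) (by
      simpa using IsPGroup.iff_orderOf.1 he.bpair.pair.isP u) rfl hind (hj.bset.pv i)
      (hj.bset.span i) (hj.bset.pv l), blockDefect_sbl_of_le hM hB he u.2 (le_Cen_of_comm hab u.2)]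
    refine le_of_eq_of_le (congrArg _ (Finset.sum_congr rfl fun χ _ => ?_))
      (h1 _ _ (h4 (u : G)⁻¹ i) (h4 u l))
    rw [← h3 _ le_rfl, ← h3 _ (BlockB.centralizer_inv _).ge,
      BlockB.inner_sec_inv le_rfl (Char.gen_of_irr χ.2) (hj.bset.gen i)]
  have h3 : Nat.card B = Nat.card P := by
    obtain ⟨j, φ, hj⟩ := exists_iBr hM hB1
    have : Unique (Fin (blockRank p B)) := hl ▸ inferInstanceAs (Unique (Fin 1))
    obtain ⟨j', hj', -, hall, htau, -⟩ := exists_prim_of_hom hM hB hom hl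
    have h3 : ∀ χ ∈ B, classInner (χ : G → ℂ) (pch M (j default)) = 1 := fun χ hχ => by
      rw [pch_congr (hall _ (hj.prim _) (hj.blk _)) (hj.idem _) hj'.idem,
        inner_pch (Char.irr_isClassFunction χ.2) hj'.idem, htau χ hχ]
    have h4 := cartan_of_unique hM hB hj.bset
    rw [← hj.bset.sum_inner_mul, Finset.sum_congr rfl (g := fun _ => 1) fun χ hχ => by
      rw [← Char.inner_conj_symm, h3 χ (Finset.mem_filter.1 hχ).2, map_one, one_mul],
      Finset.sum_const, nsmul_eq_mul, mul_one] at h4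
    rw [BlockB.card_defectGroup hM hB ((isDefectGroup_iff hM hB P).2 he.isDefGrp),
      Nat.card_eq_fintype_card, Fintype.card_subtype]
    exact_mod_cast h4
  have h4 := BlockB.card_eq_sum_rank hM hB he
  simp only [h2, h3, Nat.card_eq_fintype_card, Nat.cast_one, one_div] at h4
  have h5 : ∑ u : P, ((fcard p P e u : ℝ))⁻¹ = ∑ u : P, 1 := by
    rw [Finset.sum_const, nsmul_eq_mul, mul_one, Finset.card_univ]
    exact Complex.ofReal_injective (by push_cast; exact h4.symm)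
  have h6 := (Finset.sum_eq_sum_iff_of_le fun u _ => inv_le_one_of_one_le₀ (by
    exact_mod_cast Nat.pos_of_ne_zero (fcard_ne_zero hM he.bpair.pair u.2))).1 h5
  refine (he.isNilBlk_iff_of_comm hab).2 fun t ht u hu => ?_
  have h7 := h6 ⟨u, hu⟩ (Finset.mem_univ _)
  rw [inv_eq_one, Nat.cast_eq_one, fcard_of_comm hM he hab hu, relIndex_eq_one] at h7
  exact (BlockB.mem_Cen.1 (h7 ht)).symm

end CF.Block
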