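import Cfsg.Agent.Block.EqDeg
import Cfsg.Agent.Block.Prin2
import Cfsg.Agent.Clifford.Small

/-!
# Blocks with a normal defect group
-/

namespace CF.Block

open Cfsg MonoidAlgebra Subgroup Module
open CF.BlockB (v O k resC nrm omega eSet ev incl pPart pReg Cen sec regProj cm InSpan PV Γ BSet)

section Pair

variable {k : Type*} [Field k] {G : Type*} [Group G] {p : ℕ} {L Q P : Subgroup G} {f e B : k[G]}

theorem PLE.mul_ne_zero (h : PLE p L Q f P e) (he : IsPair p L P e) : f * e ≠ 0 := by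
  refine h.induction_head (C := fun _ g => g * e ≠ 0) (by rw [he.blk.idem]; exact he.blk.ne) ?_
  intro R g S s h1 h2 h3 h4
  have h5 : e ∈ sub k (centralizer (S : Set G)) :=
    sub_mono (centralizer_anti h2.le) he.mem_sub_centralizer
  have h6 := congrArg (Br S) h4
  rw [Br_mul_right _ h5, map_zero] at h6
  apply h3
  rw [← h1.eq, mul_assoc, Zc_comm h1.right.blk.mem
    (sub_mono (Cz_anti L h2.le) he.blk.mem_sub), ← mul_assoc, h6, zero_mul]

variable [Finite G] [Fact p.Prime] [CharP k p]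

theorem IsPair.exists_mul_of_normal (he : IsPair p L P e) (hn : L ≤ normalizer (P : Set G))
    (hle : PLE p L Q f P e) {x : G} (hx : x ∈ stab (Nz L Q) f) :
    ∃ y ∈ stab (Nz L P) e, ∃ c ∈ Cz L Q, x = c * y := by
  have hf := hle.left he
  have h1 := hle.cj_of_mem hx.1.2
  rw [cjs_eq_of_mem_normalizer hx.1.1, hx.2, cjs_eq_of_mem_normalizer (hn hx.1.2)] at h1
  have he' := he.cj_of_mem_Nz (x := x) ⟨hn hx.1.2, hx.1.2⟩
  obtain ⟨c, hc, h2⟩ := hf.blk.conj_of_covers he'.blk he.blk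
    (inf_le_right.trans ((le_inf hn le_rfl).trans (Nz_le_normalizer_Cz L P))) (Cz_anti L hle.le)
    (h1.mul_ne_zero he') (hle.mul_ne_zero he)
  refine ⟨c * x, ⟨⟨hn (L.mul_mem hc.2 hx.1.2), L.mul_mem hc.2 hx.1.2⟩, by rw [cj_mul, h2]⟩,
    c⁻¹, inv_mem hc, by simp⟩

variable [IsAlgClosed k]

theorem MaxPair.isNilBlk_of_normal (h : MaxPair p L B P e) (hn : L ≤ normalizer (P : Set G))
    (h1 : ∀ x ∈ stab (Nz L P) e, ¬ p ∣ orderOf x → x ∈ centralizer (P : Set G)) :
    IsNilBlk p L B := by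
  have hp : p.Prime := Fact.out
  rw [h.isNilBlk_iff_ple]
  intro Q f hle x hx hxp
  obtain ⟨y, hy, c, hc, rfl⟩ := h.bpair.pair.exists_mul_of_normal hn hle hx
  obtain ⟨n, hn⟩ := exists_pPart_pow hp y
  have hy' : y ∈ normalizer (Q : Set G) := by
    simpa using mul_mem (inv_mem (centralizer_le_normalizer' _ hc.1)) hx.1.1
  have h2 := h1 _ (BlockB.pReg_mem hy) (BlockB.not_dvd_orderOf_pReg hp (isOfFinOrder_of_finite y))
  refine mem_centralizer_of_agree hp hx.1.1 hxp hn fun u hu => ?_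
  have h3 := conj_eq_of_mem_centralizer hc.1 (conj_mem_of_mem_normalizer hy' hu)
  have h4 := conj_eq_of_mem_centralizer h2 (hle.le hu)
  calc c * y * u * (c * y)⁻¹ = c * (y * u * y⁻¹) * c⁻¹ := by group
    _ = pPart p y * (pReg p y * u * (pReg p y)⁻¹) * (pPart p y)⁻¹ := by
      rw [h3]; conv_lhs => rw [← BlockB.pPart_mul_pReg (p := p) y]
      group
    _ = _ := by rw [h4]

end Pair

variable {p : ℕ} {M : Ideal AlgInt} {G : Type*} [Group G] [Finite G] {B : Set (IrrCharacter G)}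

theorem deg_eq_of_nil (hM : IsPModular p M) (hB : IsPBlock M B) (hnil : IsNilBlk p ⊤ (eb M B))
    {χ ψ : IrrCharacter G} (hχ : χ ∈ B) (hψ : ψ ∈ B) (h0 : blockHeight p B (χ : G → ℂ) = 0)
    (h1 : blockHeight p B (ψ : G → ℂ) = 0) : charDegree (χ : G → ℂ) = charDegree (ψ : G → ℂ) := by
  obtain ⟨a, ha⟩ := exists_reg_eq_of_nil hM hB hnil hχ h0 hψ
  obtain ⟨b, hb⟩ := exists_reg_eq_of_nil hM hB hnil hψ h1 hχ
  have h2 := congrFun ha 1
  have h3 := congrFun hb 1
  have h4 : IsPRegular p (1 : G) := by simp [IsPRegular, hM.1.ne_one]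
  simp only [pRegularPart, h4, Pi.smul_apply, smul_eq_mul, ← BlockB.irr_charDegree_eq,
    if_true, not_false_eq_true] at h2 h3
  exact Nat.dvd_antisymm ⟨a, by exact_mod_cast h2.trans (mul_comm _ _)⟩
    ⟨b, by exact_mod_cast h3.trans (mul_comm _ _)⟩

/-- If all height zero characters of a block with normal defect group have the same degree, the
block is nilpotent. -/
theorem nil_of_eq_deg_normal (hM : IsPModular p M) (hB : IsPBlock M B) {D : Subgroup G} [D.Normal]
    (hD : IsDefGrp p ⊤ (eb M B) D) {n : ℕ}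
    (h : ∀ χ ∈ B, blockHeight p B (χ : G → ℂ) = 0 →
      charDegree ((χ : IrrCharacter G) : G → ℂ) = n) : IsNilBlk p ⊤ (eb M B) := by
  have := BlockB.charP_k hM
  have hp := hM.1
  have : Fact p.Prime := ⟨hp⟩
  have hBb := isBlk_eb hM hB
  obtain ⟨e, he⟩ := hD.exists_maxPair hBb
  have hn : ∀ (X N : Subgroup G) [N.Normal], X ≤ normalizer (N : Set G) := le_normalizer_of_normal'
  refine he.isNilBlk_of_normal (hn _ _) fun t ht htp => ?_
  set φ := QuotientGroup.mk' ⁅D, D⁆
  have hφ : Function.Surjective φ := QuotientGroup.mk'_surjective _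
  have : (D.map φ).Normal := Normal.map inferInstance _ hφ
  set C := centralizer (D.map φ : Set (G ⧸ ⁅D, D⁆))
  set L := C.comap φ
  have hLC : L.map φ = C := map_comap_eq_self_of_surjective hφ _
  have hker : φ.ker = ⁅D, D⁆ := QuotientGroup.ker_mk' _
  have hD' : ⁅D, D⁆ ≤ D := commutator_le_left _ _
  have hkp : IsPGroup p φ.ker := by rw [hker]; exact hD.isP.to_le hD'
  have hcomm : ⁅D, L⁆ ≤ ⁅D, D⁆ := by
    conv_rhs => rw [← hker]
    rw [← Subgroup.map_eq_bot_iff, map_commutator, hLC, Subgroup.commutator_comm (D.map φ) C,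
      commutator_eq_bot_iff_le_centralizer]
  have hreg : ∀ x ∈ L, ¬ p ∣ orderOf x → x ∈ centralizer (D : Set G) := fun x hx hxp =>
    Loc.pResidualOf_le_centralizer_of_commutator_le hD.isP (hn _ _) hcomm
      (Loc.mem_pResidualOf hx ((Nat.Prime.coprime_iff_not_dvd hp).2 hxp).symm)
  have hCL : centralizer (D : Set G) ≤ L := by
    intro x hx
    rw [mem_comap, mem_centralizer_iff]
    rintro _ ⟨d, hd, rfl⟩
    rw [← map_mul, ← map_mul, mem_centralizer_iff.1 hx d hd]
  have hab : D.map φ ≤ C := by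
    rw [← commutator_eq_bot_iff_le_centralizer, ← map_commutator, Subgroup.map_eq_bot_iff, hker]
  refine hreg t ?_ htp
  have he1 : IsBlk (centralizer (D : Set G)) e := Cz_top D ▸ he.bpair.pair.blk
  have hf := (regSupp hM).isBlk_orb hreg he1 (hn _ _) hCL
  have hft : cj t (orb L e) = orb L e := by
    have h1 := hf.cj_of_mem_normalizer (hn ⊤ L (mem_top t))
    refine (regSupp hM).eq_orb hreg h1 he1 (hn _ _) hCL ?_
    conv_lhs => enter [2]; rw [← ht.2]
    rw [← map_mul, he1.orb_mul (hn _ _)]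
    exact cj_ne_zero.2 he1.ne
  have hBf : eb M B * orb L e = orb L e := by
    refine mul_orb_of_mul_eq (fix_anti le_top hBb.mem_fix) ?_
    have := he.bpair.eq
    rwa [hBb.Br_eq_self hD.isP le_top (hn _ _)] at this
  have hb' : IsBlk C (gmap φ (orb L e)) := by
    rw [← hLC]
    refine hf.gmap_of_centralizes (regSupp hM) φ hkp (ker_le_comap _ _) fun x hx hxp => ?_
    rw [hker]
    exact centralizer_anti hD' (hreg x hx hxp)
  have hpair : IsPair p ⊤ (D.map φ) (gmap φ (orb L e)) :=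
    ⟨le_top, hD.isP.map φ, by rwa [Cz_top]⟩
  obtain ⟨b, hb⟩ := hpair.exists_bPair
  obtain ⟨c, hc, rfl⟩ := exists_eb_eq hM hb.blk
  have h1 : gmap φ (eb M B) * eb M c ≠ 0 := fun h0 => hb'.ne (by
    have := hb.eq
    rw [hb.blk.Br_eq_self (hD.isP.map φ) le_top (le_normalizer_of_normal' _ _)] at this
    rw [← hBf, map_mul, ← this, ← mul_assoc, h0, zero_mul])
  have h2 : IsDefGrp p ⊤ (eb M c) (D.map φ) := by
    obtain ⟨E, hE⟩ := hb.blk.exists_isDefGrp (p := p)
    obtain ⟨P, hP, h2⟩ := hE.exists_le_map hφ hb.blk hBb h1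
    rw [← hD.eq_of_normal hP hBb (hn _ _)] at h2
    rwa [← le_antisymm h2 (hE.normal_le hb.blk (hD.isP.map φ) le_top
      (le_normalizer_of_normal' _ _))]
  have h3 := nil_of_eq_deg hM hc (hb.maxPair h2) hab (n := n) fun χ hχ => by
    let ψ : IrrCharacter G := ⟨_, Char.irr_inflate ⁅D, D⁆ χ.2⟩
    have hψ : ψ ∈ B := (mem_iff_gmap_mul_ne_zero hM hφ hc hB hχ (ψ := ψ) rfl).2 h1
    refine h ψ hψ ((BlockB.height_zero_iff hψ).2 (le_antisymm ?_ (BlockB.minExp_le hψ)))
    have h3 := Clifford.irr_one_dvd_index_of_normal_comm (D.map φ)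
      (fun a ha b hb => mem_centralizer_iff.1 (hab hb) a ha) χ.2
      (BlockB.irr_charDegree_eq χ).symm
    rw [index_map_eq _ hφ (hker.trans_le hD')] at h3
    have h4 := BlockB.blockDefect_add_minExp (p := p) ⟨ψ, hψ⟩
    rw [← D.card_mul_index, Nat.factorization_mul Nat.card_pos.ne' FiniteIndex.index_ne_zero,
      hD.card_eq_pow hM hB, Finsupp.add_apply, hp.factorization_pow, Finsupp.single_eq_same,
      add_right_inj] at h4
    rw [h4]
    exact (Nat.factorization_le_iff_dvd (BlockB.irr_charDegree_ne_zero χ)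
      FiniteIndex.index_ne_zero).2 h3 p
  refine ((hb.maxPair h2).isNilBlk_iff_of_comm hab).1 h3 ⟨⟨le_normalizer_of_normal' ⊤ _
    (mem_top _), mem_top _⟩, ?_⟩
  rw [← gmap_cj, hft]

end CF.Block
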