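import Cfsg.Agent.Char.Induce
import Cfsg.Agent.Char.Orth
import Cfsg.Agent.Char.PermLemma
import Cfsg.Prelude.Def_LieRecognition

/-! Irreducible induction from the point stabiliser of a split doubly transitive group. -/

set_option autoImplicit false

namespace CF.Block

open Cfsg CF.Char Subgroup MulAction
open scoped ComplexConjugate

variable {G : Type*} [Group G]

/-- Mackey's irreducibility criterion (sufficiency). -/
theorem irr_indFun_of_orth [Fintype G] (H : Subgroup G) {θ : H → ℂ} (hθ : IsIrrCharacter H θ)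
    (h : ∀ x, x ∉ H → ∑ g, extendByZero H θ g * conj (extendByZero H θ (x * g * x⁻¹)) = 0) :
    IsIrrCharacter G (indFun H θ) := by
  classical
  have := Fintype.ofFinite H
  have hc : (Nat.card H : ℂ) ≠ 0 := card_ne_zero_complex
  refine (irr_iff_inner_self (char_indFun H (irr_isCharacter hθ))).2 ?_
  rw [inner_indFun_left H θ (indFun_isClassFunction H θ), inner_def,
    ← sum_extendByZero_mul H θ (fun g => conj (indFun H θ g))]
  have h1 : ∀ g, extendByZero H θ g * conj (indFun H θ g) = (Nat.card H : ℂ)⁻¹ *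
      ∑ x : G, extendByZero H θ g * conj (extendByZero H θ (x * g * x⁻¹)) := by
    intro g
    rw [indFun_apply', map_mul, map_sum, map_inv₀, map_natCast, ← Finset.mul_sum]
    ring
  simp only [h1]
  rw [← Finset.mul_sum, Finset.sum_comm]
  have h2 : ∀ x : G, ∑ g, extendByZero H θ g * conj (extendByZero H θ (x * g * x⁻¹)) =
      if x ∈ H then (Nat.card H : ℂ) else 0 := by
    intro x
    split_ifs with hx
    · simp only [extendByZero_conj_of_mem H (irr_isClassFunction hθ) hx]
      rw [sum_extendByZero_mul H θ (fun g => conj (extendByZero H θ g))]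
      simp only [extendByZero_coe]
      rw [← card_mul_inner, inner_irr_self hθ, mul_one]
    · exact h x hx
  simp only [h2]
  rw [← Finset.sum_filter, Finset.sum_const, nsmul_eq_mul]
  have h3 : (Finset.univ.filter fun x : G => x ∈ H).card = Nat.card H := by
    rw [Nat.card_eq_fintype_card, ← Fintype.card_subtype]
  rw [h3]
  field_simp

theorem exists_retraction {H Q K : Subgroup G} (hQ : Q ≤ H) (hK : K ≤ H)
    (hn : ∀ h ∈ H, ∀ x ∈ Q, h * x * h⁻¹ ∈ Q) (hi : Q ⊓ K = ⊥) (hs : Q ⊔ K = H) :
    ∃ π : H →* K, ∀ k : K, π ⟨k, hK k.2⟩ = k := by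
  have hN : (Q.subgroupOf H).Normal := ⟨fun x hx h => hn h h.2 x hx⟩
  have hc : (K.subgroupOf H).IsComplement' (Q.subgroupOf H) := by
    refine IsComplement'.symm (isComplement'_of_disjoint_and_mul_eq_univ ?_ ?_)
    · rw [disjoint_iff, subgroupOf, subgroupOf, ← comap_inf, hi]
      exact bot_subgroupOf H
    · rw [← normal_mul, ← subgroupOf_sup hQ hK, hs, subgroupOf_self, coe_top]
  refine ⟨((subgroupOfEquivOfLe hK).toMonoidHom.comp hc.QuotientMulEquiv.toMonoidHom).comp
    (QuotientGroup.mk' _), fun k => ?_⟩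
  have : hc.QuotientMulEquiv (QuotientGroup.mk' _ (⟨k, hK k.2⟩ : H)) = ⟨⟨k, hK k.2⟩, k.2⟩ := by
    rw [← MulEquiv.eq_symm_apply]
    rfl
  simp only [MonoidHom.comp_apply, MulEquiv.coe_toMonoidHom, this]
  rfl

/-- In a rank one set-up with two involutions swapping the two points, some irreducible character
has degree divisible by the degree of the action. -/
theorem exists_irr_of_rankOne [Finite G] {Ω : Type*} [MulAction G Ω] {a : Ω} {u : G}
    {Q : Subgroup G} (hS : IsRankOneSetup G Ω a u Q) {s t : G} (hs : s * s = 1) (ht : t * t = 1)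
    (hsa : s • a = u • a) (hta : t • a = u • a) (hne : s ≠ t) :
    ∃ χ : G → ℂ, IsIrrCharacter G χ ∧ ∃ n : ℕ, χ 1 = ((stabilizer G a).index * n : ℕ) := by
  classical
  have := Fintype.ofFinite G
  set H := stabilizer G a with hH
  set b := u • a with hb
  set K := H ⊓ stabilizer G b with hK
  have := Fintype.ofFinite K
  have hKH : K ≤ H := inf_le_left
  obtain ⟨π, hπ⟩ := exists_retraction hS.le hKH hS.conj_mem
    (by rw [hK, ← inf_assoc, inf_eq_left.2 hS.le]; exact hS.inf_eq_bot) hS.sup_eq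
  have hsb : s • b = a := by rw [← hsa, ← mul_smul, hs, one_smul]
  have htb : t • b = a := by rw [← hta, ← mul_smul, ht, one_smul]
  have hti : t⁻¹ = t := inv_eq_of_mul_eq_one_right ht
  have hsi : s⁻¹ = s := inv_eq_of_mul_eq_one_right hs
  have hmem : ∀ g, g ∈ K ↔ g • a = a ∧ g • b = b := fun g => Iff.rfl
  have hcj : ∀ g, t * g * t⁻¹ ∈ H ↔ g • b = b := by
    intro g
    rw [hH, mem_stabilizer_iff, mul_smul, mul_smul, hti, hta, smul_eq_iff_eq_inv_smul, hti, hta]
  have hcjK : ∀ g ∈ K, t * g * t⁻¹ ∈ K := by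
    intro g hg
    refine ⟨(hcj g).2 hg.2, ?_⟩
    change (t * g * t⁻¹) • b = b
    rw [mul_smul, mul_smul, hti, htb, ((hmem g).1 hg).1, hta]
  let c : K →* K :=
    { toFun := fun k => ⟨t * k * t⁻¹, hcjK k k.2⟩
      map_one' := Subtype.ext (by simp)
      map_mul' := fun x y => Subtype.ext (by simp [mul_assoc]) }
  have hcs : Function.Surjective c := Finite.surjective_of_injective fun x y h =>
    Subtype.ext (by simpa [c] using h)
  let k : K := ⟨t * s, (hmem _).2 ⟨by rw [mul_smul, hsa, htb], by rw [mul_smul, hsb, hta]⟩⟩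
  have hk : c k = k⁻¹ := Subtype.ext (by
    change t * (t * s) * t⁻¹ = (t * s)⁻¹
    rw [← mul_assoc, ht, one_mul, mul_inv_rev, hsi])
  have hk1 : k ≠ 1 := fun h => hne (by
    have h1 : t * s = 1 := congrArg Subtype.val h
    rw [← hti, inv_mul_eq_one] at h1
    exact h1.symm)
  have hnc : ¬ IsConj k k⁻¹ := fun h => hk1 (eq_one_of_isConj_inv_of_odd hS.odd_card h)
  rw [isConj_iff_irr_eq, not_forall] at hnc
  obtain ⟨lam, hlam⟩ := hnc
  have hπs : Function.Surjective π := fun x => ⟨_, hπ x⟩
  have hθ := irr_comp_of_surjective lam.2 π hπs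
  set θ : H → ℂ := fun x => (lam : K → ℂ) (π x) with hθd
  have h0 : ∑ g, extendByZero H θ g * conj (extendByZero H θ (t * g * t⁻¹)) = 0 := by
    have h1 : classInner (lam : K → ℂ) (fun x => (lam : K → ℂ) (c x)) = 0 :=
      inner_irr_ne lam.2 (irr_comp_of_surjective lam.2 c hcs) fun h => hlam (by
        rw [← hk]; exact congrFun h k)
    have h2 := card_mul_inner (lam : K → ℂ) (fun x => (lam : K → ℂ) (c x))
    rw [h1, mul_zero] at h2
    rw [h2, ← sum_extendByZero K]
    refine Finset.sum_congr rfl fun g _ => ?_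
    by_cases hg : g ∈ K
    · rw [extendByZero_of_mem K _ hg, extendByZero_of_mem H _ (hKH hg),
        extendByZero_of_mem H _ (hKH (hcjK g hg))]
      simp only [hθd]
      rw [hπ ⟨g, hg⟩, hπ ⟨_, hcjK g hg⟩]
      rfl
    · rw [extendByZero_of_not_mem K _ hg]
      by_cases hgH : g ∈ H
      · rw [extendByZero_of_not_mem H θ (g := t * g * t⁻¹) fun h => hg ⟨hgH, (hcj g).1 h⟩,
          map_zero, mul_zero]
      · rw [extendByZero_of_not_mem H θ hgH, zero_mul]
  refine ⟨indFun H θ, irr_indFun_of_orth H hθ fun x hx => ?_, ?_⟩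
  · have hba : b ≠ a := hS.not_mem
    have hxa : x • a ≠ a := hx
    have := hS.two_transitive
    obtain ⟨y, hy1, hy2⟩ := (is_two_pretransitive_iff.1 hS.two_transitive) hba.symm hxa.symm
    have hy : y ∈ H := hy1
    have hz : t⁻¹ * y⁻¹ * x ∈ H := by
      rw [hH, mem_stabilizer_iff, mul_smul, mul_smul, ← hy2, inv_smul_smul, hti, htb]
    set z := t⁻¹ * y⁻¹ * x with hzd
    have hx' : x = y * t * z := by rw [hzd]; group
    rw [← h0]
    refine Fintype.sum_equiv (MulAut.conj z).toEquiv _ _ fun g => ?_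
    have e1 : (MulAut.conj z).toEquiv g = z * g * z⁻¹ := rfl
    rw [e1, extendByZero_conj_of_mem H (irr_isClassFunction hθ) hz,
      ← extendByZero_conj_of_mem H (irr_isClassFunction hθ) hy (t * (z * g * z⁻¹) * t⁻¹), hx']
    congr 3
    group
  · obtain ⟨n, -, hn⟩ := irr_one_eq_nat hθ
    exact ⟨n, by rw [indFun_one, hn]; push_cast; rfl⟩

end CF.Block
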